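import Cfsg.Agent.Sing.Fin
import Cfsg.Agent.Sg11.TI
import Cfsg.Agent.Sg11.G1
import Cfsg.Agent.Sg11.G4

/-!
# The Singer normaliser is maximal in `SL_11(q)` (port of `Sing/*` from `13 ≤ n` to `11 ≤ n`)
-/

set_option autoImplicit false
set_option linter.unusedSectionVars false
set_option linter.style.haveILetI false

namespace Cfsg.Agent.Sing.E11

open MulAction Pointwise Cfsg.Agent.Proj.CK

open Cfsg.Agent.Class.Max Polynomial

section

variable {F K G : Type*} [Field F] [Field K] [Algebra F K] [Finite F] [Finite K] [Group G]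
  [Finite G] [DistribMulAction G K] [SMulCommClass G F K] {σ : G} {n : ℕ}

theorem Sg.t2_or (D : Sg F K σ n) : T2 F G K ∨ ∀ g : G, g ∈ sN K G := by
  obtain ⟨h, T, hP⟩ := D.tiz
  haveI : Finite (Submodule F K) := Finite.of_injective _ SetLike.coe_injective
  rcases T.dich (Set.toFinite _) (inv_pts ⊤) hP D.Z_triv D.semireg with C | C
  · left
    by_cases hd : n ∣ Nat.card F - 1
    · exact (D.gh hd C).t2 D.hZ
    · exact D.t2_of_not_dvd hd C
  · exact Or.inr (D.of_cII C)

end

variable {F K : Type*} [Field F] [Field K] [Algebra F K] [Finite F] [Finite K]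

theorem GamL_isMaximalIn_self (hp : (Module.finrank F K).Prime) (h13 : 11 ≤ Module.finrank F K) :
    Geo.IsMaximalIn (SLV F K) (GamL F K K ⊓ SLV F K) := by
  refine isMaximalIn_of inf_le_right (exists_not_GamL hp (by omega)) fun M h1 h2 g hg hg' => ?_
  have hle : M ≤ ext M := fun m hm => ⟨1, one_ne_zero, m, hm, fun x => by simp⟩
  obtain ⟨σ, hσ, hσ'⟩ := exists_frob (F := F) (K := K) (hp.odd_of_ne_two (by omega))
  haveI : Finite (K ≃ₗ[F] K) := Finite.of_injective (fun φ => (φ : K → K)) DFunLike.coe_injective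
  have hmul : ∀ k : K, Algebra.norm F k = 1 → ∃ m ∈ M, ∀ x, m x = k * x := fun k hk => by
    have k0 : k ≠ 0 := Algebra.norm_ne_zero_iff.1 (hk ▸ one_ne_zero)
    refine ⟨(LinearEquiv.smulOfNeZero K K k k0).restrictScalars F,
      h1 ⟨restrictScalars_mem_GamL _, mem_SLV.2 ?_⟩, fun _ => rfl⟩
    rw [← hk, Algebra.norm_apply]
    exact congrArg _ (LinearMap.ext fun _ => rfl)
  have hns : ∀ (c : F) (k : K), Algebra.norm F (c • k) =
      c ^ Module.finrank F K * Algebra.norm F k := fun c k => by
    rw [Algebra.smul_def, map_mul, Algebra.norm_algebraMap]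
  have D : Sg F K (G := ext M) ⟨σ, hle (h1 hσ)⟩ (Module.finrank F K) :=
    { rank := rfl, prime := hp, h13 := h13
      faith := fun g hg => Subtype.ext (LinearEquiv.ext hg)
      fr := hσ'
      mu := fun k k0 => by
        constructor
        · rintro ⟨⟨u, c, c0, m, hm, e⟩, hu⟩
          refine ⟨c, ?_⟩
          have : Algebra.lmul F K k = c • (m : K →ₗ[F] K) := LinearMap.ext fun x => (hu x).symm.trans (e x)
          rw [Algebra.norm_apply, this, LinearMap.det_smul, mem_SLV.1 (h2 hm), mul_one]
        · rintro ⟨c, hc⟩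
          have c0 : c ≠ 0 := by
            rintro rfl
            rw [zero_pow hp.ne_zero] at hc
            exact k0 (Algebra.norm_eq_zero_iff.1 hc)
          obtain ⟨m, hm, e⟩ := hmul (c⁻¹ • k) (by
            rw [hns, hc, ← mul_pow, inv_mul_cancel₀ c0, one_pow])
          exact ⟨⟨(LinearEquiv.smulOfNeZero K K k k0).restrictScalars F, c, c0, m, hm, fun x => by
            rw [e, smul_mul_assoc, smul_inv_smul₀ c0]; rfl⟩, fun _ => rfl⟩ }
  rcases D.t2_or with h | h
  · have hS := SLV_le_of_t2 hp (by omega) (ext M)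
      (fun c hc => let ⟨u, hu⟩ := D.hZ c hc; ⟨u, u.2, hu⟩) h
    refine SLV_le_of_tv fun φ v e => ?_
    obtain ⟨t, ht, e1⟩ := hasTv_SLV e
    obtain ⟨c, c0, m, hm, e2⟩ := hS ht
    have hk : ∀ (k : ℕ) x, (c ^ k) • (m ^ k) x = x + ((k : F) * φ x) • v := by
      intro k
      induction k with
      | zero => simp
      | succ k ih =>
        intro x
        rw [pow_succ' m, mul_app, pow_succ, ← smul_smul, ← e2, ← map_smul, ih, e1]
        simp only [map_add, map_smul, e, smul_eq_mul, mul_zero, add_zero, Nat.cast_add, Nat.cast_one]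
        module
    haveI := Fintype.ofFinite F
    have hq := two_le_q (F := F)
    refine ⟨(m ^ (Nat.card F - 1))⁻¹, M.inv_mem (M.pow_mem hm _), fun x => ?_⟩
    apply (m ^ (Nat.card F - 1)).injective
    have h3 := hk (Nat.card F - 1) (x + φ x • v)
    rw [Nat.cast_sub (by omega), Nat.card_eq_fintype_card, FiniteField.pow_card_sub_one_eq_one c c0,
      FiniteField.cast_card_eq_zero, one_smul] at h3
    rw [app_inv_app, Nat.card_eq_fintype_card, h3]
    simp [e]
  · exact absurd ⟨h ⟨g, hle hg⟩, h2 hg⟩ hg'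

end Cfsg.Agent.Sing.E11

namespace Cfsg.Agent.Sg11

open Cfsg.Agent.Class.Max

variable {F K : Type*} [Field F] [Field K] [Algebra F K] [Finite F] [Finite K]

/-- the Singer normaliser is maximal in `SL_n(q)`, `n ≥ 11` prime -/
theorem GamL_isMaximalIn_one {V : Type*} [AddCommGroup V] [Module F V] [Module K V]
    [IsScalarTower F K V] (hV : Module.finrank K V = 1) (hp : (Module.finrank F K).Prime)
    (h11 : 11 ≤ Module.finrank F K) : Geo.IsMaximalIn (SLV F V) (GamL F K V ⊓ SLV F V) := by
  haveI : Module.Finite K V := Module.finite_of_finrank_pos (by omega)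
  let e : V ≃ₗ[K] K := LinearEquiv.ofFinrankEq V K (by rw [hV, Module.finrank_self])
  let e' : V ≃ₗ[F] K := e.restrictScalars F
  let c : (V ≃ₗ[F] V) ≃* (K ≃ₗ[F] K) :=
    { toFun := fun g => (e'.symm.trans g).trans e'
      invFun := fun g => (e'.trans g).trans e'.symm
      left_inv := fun g => LinearEquiv.ext fun x => by simp
      right_inv := fun g => LinearEquiv.ext fun x => by simp
      map_mul' := fun g h => LinearEquiv.ext fun x => by simp }
  have hc : ∀ g x, c g x = e (g (e.symm x)) := fun _ _ => rfl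
  have h1 : ∀ g, g ∈ SLV F V ↔ c g ∈ SLV F K := fun g => by
    rw [mem_SLV, mem_SLV, ← LinearMap.det_conj (g : V →ₗ[F] V) e']
    rfl
  have key : ∀ (g : V ≃ₗ[F] V) (k k' : K), (∀ v, g (k • v) = k' • g v) ↔
      ∀ v, c g (k • v) = k' • c g v := fun g k k' => by
    constructor
    · intro h v; rw [hc, hc, map_smul, h, map_smul]
    · intro h v
      have := h (e v)
      rw [hc, hc, ← map_smul, e.symm_apply_apply, e.symm_apply_apply, ← map_smul] at this
      exact e.injective this
  refine isMaximalIn_of_equiv c (H' := GamL F K K ⊓ SLV F K) h1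
    (fun g => and_congr ?_ (h1 g)) (Sing.E11.GamL_isMaximalIn_self hp h11)
  exact and_congr (forall_congr' fun k => exists_congr fun k' => key g k k')
    (forall_congr' fun k' => exists_congr fun k => key g k k')

end Cfsg.Agent.Sg11
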